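import Groth.Agent.Flat2D.PbStalk
import Mathlib.AlgebraicGeometry.Properties
import Mathlib.AlgebraicGeometry.Noetherian
import Mathlib.AlgebraicGeometry.Fiber
import Mathlib.AlgebraicGeometry.Morphisms.FiniteType
import Mathlib.AlgebraicGeometry.Morphisms.QuasiCompact
import Mathlib.RingTheory.Ideal.KrullsHeightTheorem

/-!
# Dimension of local rings and fibres

* `coheight_le_add_fiber`: `dim O_{X,x} ≤ dim O_{Y,f x} + dim O_{X_{f x},x}`.
* `coheight_eq_add_of_generic`: equality holds at all points of a fibre as soon as it holds at the
  points `z` at which the fibre has dimension `0`.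
-/

set_option autoImplicit false
universe u

open AlgebraicGeometry CategoryTheory Limits TopologicalSpace Order IsLocalRing

namespace Groth.Agent.Ega4fib.H113.DimFibre

open Groth.Agent.Flat2D

/-- Dimension inequality for local homomorphisms of Noetherian local rings. -/
theorem ringKrullDim_le_add (R S : Type*) [CommRing R] [CommRing S] [IsLocalRing R]
    [IsNoetherianRing R] [IsLocalRing S] [IsNoetherianRing S] [Algebra R S]
    [IsLocalHom (algebraMap R S)] :
    ringKrullDim S ≤ ringKrullDim R +
      ringKrullDim (S ⧸ (maximalIdeal R).map (algebraMap R S)) := by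
  have hlo : (maximalIdeal S).LiesOver (maximalIdeal R) := ⟨by
    rw [Ideal.under_def, IsLocalRing.maximalIdeal_comap]⟩
  have h := Ideal.height_le_height_add_of_liesOver (maximalIdeal R) (maximalIdeal S)
  have hne : (maximalIdeal R).map (algebraMap R S) ≤ maximalIdeal S :=
    IsLocalRing.map_maximalIdeal_le (algebraMap R S)
  have hnt : Nontrivial (S ⧸ (maximalIdeal R).map (algebraMap R S)) :=
    Ideal.Quotient.nontrivial_iff.2 (fun h =>
      (maximalIdeal.isMaximal S).ne_top (top_le_iff.1 (h ▸ hne)))
  have hloc : IsLocalRing (S ⧸ (maximalIdeal R).map (algebraMap R S)) :=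
    IsLocalRing.of_surjective' (Ideal.Quotient.mk _) Ideal.Quotient.mk_surjective
  have hm : (maximalIdeal S).map (Ideal.Quotient.mk ((maximalIdeal R).map (algebraMap R S))) =
      maximalIdeal (S ⧸ (maximalIdeal R).map (algebraMap R S)) := by
    apply IsLocalRing.eq_maximalIdeal
    exact Ideal.IsMaximal.map_of_surjective_of_ker_le Ideal.Quotient.mk_surjective (by simpa using hne)
  rw [hm] at h
  rw [← maximalIdeal_height_eq_ringKrullDim, ← maximalIdeal_height_eq_ringKrullDim,
    ← maximalIdeal_height_eq_ringKrullDim]
  exact_mod_cast h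

/-- For a morphism of locally Noetherian schemes the coheight of `x` is at most the coheight
of its image plus the coheight of `x` in its fibre. -/
theorem coheight_le_add_fiber {X Y : Scheme.{u}} (f : X ⟶ Y) [IsLocallyNoetherian X]
    [IsLocallyNoetherian Y] (x : X) :
    Order.coheight x ≤ Order.coheight (f x) + Order.coheight (f.asFiber x) := by
  algebraize [(f.stalkMap x).hom]
  have : IsLocalHom (algebraMap (Y.presheaf.stalk (f x)) (X.presheaf.stalk x)) :=
    inferInstanceAs <| IsLocalHom (f.stalkMap x).hom
  have h := ringKrullDim_le_add (Y.presheaf.stalk (f x)) (X.presheaf.stalk x)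
  have e : ringKrullDim (X.presheaf.stalk x ⧸ (maximalIdeal (Y.presheaf.stalk (f x))).map
      (algebraMap (Y.presheaf.stalk (f x)) (X.presheaf.stalk x))) =
      ringKrullDim ((f.fiber (f x)).presheaf.stalk (f.asFiber x)) :=
    ringKrullDim_eq_of_ringEquiv (PbStalk.fiberStalkEquiv f x)
  rw [e, ringKrullDim_stalk_eq_coheight, ringKrullDim_stalk_eq_coheight,
    ringKrullDim_stalk_eq_coheight] at h
  exact_mod_cast h

/-- the inclusion of the fibre is strictly monotone -/
theorem fiberι_strictMono {X Y : Scheme.{u}} (f : X ⟶ Y) (y : Y) {z z' : f.fiber y}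
    (h : z < z') : f.fiberι y z < f.fiberι y z' := by
  have hemb : Topology.IsEmbedding (f.fiberι y) := (f.fiberι y).isEmbedding
  rw [lt_iff_le_not_ge] at h ⊢
  refine ⟨h.1.map hemb.continuous, fun h2 => h.2 ?_⟩
  exact (hemb.isInducing.specializes_iff).1 h2

/-- If all points `z` of the fibre over `y` of coheight `0` in the fibre have coheight at least
`coheight y` in `X`, then `coheight y + n ≤ coheight z` whenever `z` has coheight `n` in the fibre. -/
theorem add_le_coheight_of_generic {X Y : Scheme.{u}} (f : X ⟶ Y) (y : Y)
    (H : ∀ z : f.fiber y, Order.coheight z = 0 → Order.coheight y ≤ Order.coheight (f.fiberι y z))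
    (n : ℕ) (z : f.fiber y) (hz : Order.coheight z = n) :
    Order.coheight y + n ≤ Order.coheight (f.fiberι y z) := by
  induction n generalizing z with
  | zero => simpa using H z (by simpa using hz)
  | succ n ih =>
    rw [Nat.cast_add, Nat.cast_one, Order.coheight_eq_coe_add_one_iff] at hz
    obtain ⟨-, ⟨w, hw, hwn⟩, -⟩ := hz
    have h1 := ih w hwn
    have h2 : Order.coheight (f.fiberι y w) + 1 ≤ Order.coheight (f.fiberι y z) :=
      Order.coheight_add_one_le (fiberι_strictMono f y hw)
    calc Order.coheight y + ((n + 1 : ℕ) : ℕ∞) = (Order.coheight y + n) + 1 := by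
          rw [Nat.cast_add, Nat.cast_one, add_assoc]
      _ ≤ Order.coheight (f.fiberι y w) + 1 := add_le_add h1 le_rfl
      _ ≤ _ := h2

/-- A point of a locally Noetherian scheme has finite coheight. -/
theorem coheight_ne_top {X : Scheme.{u}} [IsLocallyNoetherian X] (x : X) :
    Order.coheight x ≠ ⊤ := by
  have h := ringKrullDim_lt_top (R := X.presheaf.stalk x)
  rw [ringKrullDim_stalk_eq_coheight] at h
  intro h2
  rw [h2] at h
  exact lt_irrefl _ h

/-- the dimension formula holds at every point of the fibre over `y` as soon as it holds at the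
points `z` at which the local ring of the fibre has dimension `0`. -/
theorem coheight_eq_add_of_generic {X Y : Scheme.{u}} (f : X ⟶ Y) [IsLocallyNoetherian Y]
    [LocallyOfFiniteType f] (y : Y)
    (H : ∀ z : X, f z = y → Order.coheight (f.asFiber z) = 0 →
      Order.coheight z = Order.coheight (f z)) (x : X) (hx : f x = y) :
    Order.coheight x = Order.coheight (f x) + Order.coheight (f.asFiber x) := by
  have hX : IsLocallyNoetherian X := LocallyOfFiniteType.isLocallyNoetherian f
  refine le_antisymm (coheight_le_add_fiber f x) ?_
  subst hx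
  have hft : LocallyOfFiniteType (f.fiberToSpecResidueField (f x)) :=
    inferInstanceAs (LocallyOfFiniteType (pullback.snd f (Y.fromSpecResidueField (f x))))
  have hF : IsLocallyNoetherian (f.fiber (f x)) :=
    LocallyOfFiniteType.isLocallyNoetherian (f.fiberToSpecResidueField (f x))
  obtain ⟨n, hn⟩ : ∃ n : ℕ, Order.coheight (f.asFiber x) = n :=
    ENat.ne_top_iff_exists.1 (coheight_ne_top (f.asFiber x)) |>.imp fun _ h => h.symm
  have h3 := add_le_coheight_of_generic f (f x) (fun z hz => ?_) n (f.asFiber x) hn
  · rw [f.fiberι_asFiber] at h3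
    rw [hn]
    exact h3
  · have hw : f (f.fiberι (f x) z) = f x := by
      have : f.fiberι (f x) z ∈ Set.range (f.fiberι (f x)) := ⟨z, rfl⟩
      rw [f.range_fiberι] at this
      exact this
    have h4 := H (f.fiberι (f x) z) hw ?_
    · rw [h4, hw]
    · -- coheight in the fibre of the point
      have key : ∀ (y : Y) (z : f.fiber y) (w : X), f.fiberι y z = w →
          Order.coheight z = 0 → Order.coheight (f.asFiber w) = 0 := by
        intro y z w hzw hz0
        have hy : f w = y := by
          have : f.fiberι y z ∈ Set.range (f.fiberι y) := ⟨z, rfl⟩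
          rw [f.range_fiberι, hzw] at this
          exact this
        subst hy
        have : z = f.asFiber w := by
          apply (f.fiberι (f w)).isEmbedding.injective
          rw [hzw, f.fiberι_asFiber]
        rw [← this]
        exact hz0
      exact key (f x) z _ rfl hz

end Groth.Agent.Ega4fib.H113.DimFibre
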